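import Cfsg.Agent.Blocks.Dihedral.Main
import Cfsg.Agent.Blocks.HeightZero.InducedDefect

/-!
# Blocks with dihedral defect groups and three irreducible Brauer characters

If the rank is three, the involutions of the defect group are conjugate.
-/

set_option autoImplicit false
set_option maxHeartbeats 1000000
open scoped MonoidAlgebra
open scoped ComplexConjugate

namespace CfsgLib.Blocks.TameRankThree

open Cfsg CfsgLib CfsgLib.Blocks CfsgLib.Blocks.NilSection CfsgLib.FusionTwo CfsgLib.Blocks.Contrib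
  CfsgLib.Blocks.HeightZero CfsgLib.Blocks.DihedralBlk

universe u

variable {G : Type u} [Group G] [Fintype G] {M : Ideal AlgInt} [hMmax : M.IsMaximal]
  [hp : Fact (Nat.Prime 2)] [CharP (kres M) 2] {B : Set (IrrCharacter G)}

/-- The central involution gives a context. -/
theorem exists_ctx_le (hM : IsPModular 2 M) (hB : IsPBlock M B) {D : Subgroup G}
    (hD : IsDefectGroup 2 M B D) {n : ℕ} (hn : 3 ≤ n)
    (e : D ≃* DihedralGroup (2 ^ (n - 1))) :
    ∃ (z : G) (H : Subgroup G) (_ : Fintype H) (b : Set (IrrCharacter H)) (P : Subgroup H)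
      (g : (kres M)[H]) (ψ : IrrCharacter H) (x y : H), Ctx M B (n - 1) z H b P g ψ x y ∧
        P.map H.subtype ≤ D := by
  classical
  have hDI := (isDefectGroup_topEl_iff (M := M) hB D).1 hD
  have h2m : 2 ≤ 2 ^ (n - 1) := by
    calc 2 = 2 ^ 1 := (pow_one 2).symm
      _ ≤ 2 ^ (n - 1) := Nat.pow_le_pow_right two_pos (by omega)
  obtain ⟨n', xG, yG, hn', hgen⟩ := exists_isDihGen hDI.2.1 h2m e
  obtain rfl : n - 1 = n' := Nat.pow_right_injective le_rfl hn'
  set zG : G := xG ^ 2 ^ (n - 1 - 1) with hzG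
  have hzD : zG ∈ D := D.pow_mem hgen.x_mem _
  have hz2 : orderOf zG = 2 := by
    rw [hzG, orderOf_pow' _ (pow_ne_zero _ two_ne_zero), hgen.ox,
      Nat.gcd_eq_right (pow_dvd_pow 2 (Nat.sub_le _ _)), Nat.pow_div (Nat.sub_le _ _) two_pos,
      show n - 1 - (n - 1 - 1) = 1 by omega, pow_one]
  have hzc : ∀ d ∈ D, zG * d = d * zG := by
    intro d hd
    have h := hgen.z_comm hd
    rw [show xG ^ ((2 : ℤ) ^ (n - 1 - 1)) = zG by rw [hzG, ← zpow_natCast]; push_cast; rfl] at h
    exact h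
  set H := Subgroup.centralizer ({zG} : Set G) with hH
  haveI := Fintype.ofFinite H
  have hCH : Subgroup.centralizer (Subgroup.zpowers zG : Set G) = H :=
    Blocks.centralizer_zpowers_eq zG
  have hDH : D ≤ H := fun d hd => Subgroup.mem_centralizer_singleton_iff.2 (hzc d hd).symm
  obtain ⟨g₀, hmax₀⟩ := KleinFour.exists_maxPair hB hD
  have hle : Subgroup.zpowers zG ≤ D := Subgroup.zpowers_le.2 hzD
  obtain ⟨hfb, hfo⟩ := mem_blocksOver.mp (fBelow_mem_blocksOver hB hmax₀ hle)
  rw [top_inf_eq, hCH] at hfb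
  obtain ⟨b, hb, hbe⟩ := exists_subEl_eq hfb
  have hind : IsInducedBlock M H b B := by
    rw [isInducedBlock_iff_brOver hM (hDI.2.1.to_le hle)
      (Subgroup.zpowers_le.2 (Subgroup.mem_centralizer_singleton_iff.2 rfl)) hCH.le
      (hCH.symm.le.trans (Subgroup.centralizer_le_normalizer _)) hb hB, hbe]
    exact hfo
  have hdefI := CentralPair.isDefectGroupIdem_center hB hmax₀ hzD hzc
  rw [hCH, ← hbe] at hdefI
  have hPdef : IsDefectGroup 2 M b (D.subgroupOf H) :=
    (isDefectGroup_subgroupOf_iff hDH hb).2 hdefI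
  have hnilI := CentralPair.isNilpotentIdem_center hB hmax₀ hgen hzD hz2
  rw [hCH, ← hbe] at hnilI
  have hnil : IsNilpotentIdem 2 ⊤ (topEl M b) :=
    (isNilpotentIdem_top_iff hb).1 ((isNilpotentBlock_subEl_iff hb).2 hnilI)
  have hcardP : Nat.card (D.subgroupOf H) = Nat.card D :=
    Nat.card_congr (Subgroup.subgroupOfEquivOfLe hDH).toEquiv
  have h1 := natCard_defectGroup hM hb hPdef
  have h2 := natCard_defectGroup hM hB hD
  rw [hcardP, h2] at h1
  have hmaj : blockDefect 2 b = blockDefect 2 B := (Nat.pow_right_injective le_rfl h1).symm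
  rw [hgen.card] at h2
  have hdef : blockDefect 2 B = n - 1 + 1 := (Nat.pow_right_injective le_rfl h2).symm
  obtain ⟨g, hmax⟩ := KleinFour.exists_maxPair hb hPdef
  obtain ⟨ψ, hψ, h0⟩ := exists_height_zero (p := 2) hb
  refine ⟨zG, H, inferInstance, b, D.subgroupOf H, g, ψ, ⟨xG, hDH hgen.x_mem⟩,
    ⟨yG, hDH hgen.y_mem⟩, ⟨hM, hB, hz2, rfl, hind, hmaj, hdef, hmax, hnil, hψ, h0,
      ⟨hgen.one_le, by rw [hcardP, hgen.card], hgen.x_mem, hgen.y_mem,
        by rw [Subgroup.orderOf_mk, hgen.ox], by rw [Subgroup.orderOf_mk, hgen.oy],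
        Subtype.ext hgen.rel, fun hmem => hgen.y_not_mem ?_⟩, by omega, rfl⟩,
    Subgroup.map_comap_le H.subtype D⟩
  obtain ⟨i, hi⟩ := hmem
  exact ⟨i, by simpa using congrArg Subtype.val hi⟩


/-- A member of height zero is non-zero somewhere on the section of an element of the defect group. -/
theorem exists_apply_ne_zero (hM : IsPModular 2 M) (hB : IsPBlock M B) {D : Subgroup G}
    (hD : IsDefectGroup 2 M B D) {t : G} (htD : t ∈ D) {k : ℕ} (ht : orderOf t = 2 ^ k) :
    ∃ χ ∈ B, ∃ u : G, IsPPart 2 u t ∧ (χ : G → ℂ) u ≠ 0 := by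
  obtain ⟨χ, hχ, h0⟩ := exists_height_zero (p := 2) hB
  obtain ⟨r, hr, S, rfl⟩ := hD
  obtain ⟨d, -, hd⟩ := htD
  have hc : Commute t r := by
    rw [← hd]
    exact Subgroup.mem_centralizer_singleton_iff.1 d.2
  have hreg := not_dvd_orderOf_of_isDefectClass hM hB hr
  refine ⟨χ, hχ, t * r, ⟨r, rfl, hc, ⟨k, ht⟩, hreg⟩, fun h => ?_⟩
  refine not_memLocalIdeal_apply_of_height_zero hM hB hr hχ h0 ?_
  rw [← (congr_apply_mul hM (Chars.isCharacter_coe χ) hc ht hreg).mem_iff, h]
  exact memLocalIdeal_zero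

/-- **With rank three, an involution of the defect group is conjugate to a power of a rotation.** -/
theorem isConj_rot_of_rank_three (hM : IsPModular 2 M) (hB : IsPBlock M B) {D : Subgroup G}
    (hD : IsDefectGroup 2 M B D) {m : ℕ} {z : G} {H : Subgroup G} [Fintype H]
    {b : Set (IrrCharacter H)} {P : Subgroup H} {g : (kres M)[H]} {ψ : IrrCharacter H} {x y : H}
    (c : Ctx M B m z H b P g ψ x y) (hl : blockRank 2 B = 3)
    (hk : Nat.card B = 2 ^ (m - 1) + 3) {t : G} (htD : t ∈ D) (ht : orderOf t = 2) :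
    ∃ a, 0 < a ∧ a < 2 ^ m ∧ IsConj t ((x ^ a : H) : G) := by
  classical
  by_contra hcon
  push Not at hcon
  obtain ⟨χ₁, hχ₁, u, hu, hu0⟩ := exists_apply_ne_zero hM hB hD htD (k := 1) (by rw [ht, pow_one])
  have hus : 2 ∣ orderOf u := by
    obtain ⟨r, h1, h2, ⟨i, h3⟩, h4⟩ := hu
    rw [← h1, h2.orderOf_mul_eq_mul_orderOf_of_coprime (by
      rw [h3]; exact Nat.Coprime.pow_left _ (Nat.prime_two.coprime_iff_not_dvd.2 h4)), ht]
    exact dvd_mul_right 2 _
  have hμ := Complex.isPrimitiveRoot_exp (2 ^ m) (pow_ne_zero _ two_ne_zero)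
  choose k hkx using fun χ : IrrCharacter G => exists_expand c hμ χ
  set s := B.toFinite.toFinset with hs
  have hcols : DihedralColumns.Cols s m _ k (fun χ a => pFn b P g ψ χ (x ^ a)) :=
    ⟨c.two_le, hμ, fun χ _ a => hkx χ a, fun χ _ a _ ha => pFn_even c χ ha.le,
      fun a a' ha0 ha ha0' ha' => pFn_orth c ha0 ha ha0' ha'⟩
  have horth : ∀ a, 0 < a → a < 2 ^ m →
      ∑ χ ∈ s, (χ : G → ℂ) u * pFn b P g ψ χ (x ^ a) = 0 := by
    intro a ha0 ha
    set v : H := x ^ a with hv'
    have hv : v ∈ P := P.pow_mem c.gen.x_mem a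
    obtain ⟨b', hb', hbe, r, hr, hr0⟩ := exists_section c hv
    haveI := Fintype.ofFinite (cz v)
    refine (mul_eq_zero.1 (?_ : _ * lFn b' ψ r = 0)).resolve_right hr0
    rw [Finset.sum_mul, Finset.sum_congr rfl fun χ _ => by
      rw [mul_assoc, ← part_restrict c χ hv hb' hbe hr,
        blockPart_eq_sum_regSet c.hM hb'.1 (isClassFunction_translate'
          (Chars.isClassFunction_of_isCharacter (Chars.isCharacter_restrict (Chars.isCharacter_coe χ) H)) v)
          hr, Finset.mul_sum], Finset.sum_comm]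
    refine Finset.sum_eq_zero fun w hw => ?_
    have hpart : IsPPart 2 (((v * (w : H) : H) : G))⁻¹ ((v : H) : G)⁻¹ := by
      obtain ⟨r', h1, h2, ⟨i, h3⟩, h4⟩ :=
        isPPart_of_regular (exists_orderOf_eq_pow c.hmax.1.1.1 hv) (mem_regSet.1 hw) ▸
          isPPart_ppart (p := 2) (v * (w : H))
      refine ⟨((r' : H) : G)⁻¹, ?_, ?_, ⟨i, ?_⟩, ?_⟩
      · rw [← h1, h2.eq]
        push_cast
        rw [mul_inv_rev]
      · exact ((h2.map H.subtype).inv_inv)
      · rw [orderOf_inv, Subgroup.orderOf_coe, h3]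
      · rwa [orderOf_inv, Subgroup.orderOf_coe]
    have hne : ¬ IsConj ((v : H) : G)⁻¹ t := by
      intro h
      have hvl : a ≠ 2 ^ m := ha.ne
      refine hcon (2 ^ m - a) (Nat.sub_pos_of_lt ha) (Nat.sub_lt (Nat.two_pow_pos m) ha0) ?_
      have e : x ^ (2 ^ m - a) = (x ^ a)⁻¹ := by
        rw [eq_inv_iff_mul_eq_one, ← pow_add, Nat.sub_add_cancel ha.le, ← c.gen.ox,
          pow_orderOf_eq_one]
      rw [e, Subgroup.coe_inv, ← hv']
      exact h.symm
    have h := finsum_block_mul_conj_eq_zero_of_pPart c.hM c.hB hu hpart hne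
    rw [finsum_block_eq_sum] at h
    rw [Finset.sum_congr rfl fun χ _ => by rw [mul_left_comm], ← Finset.mul_sum]
    refine mul_eq_zero_of_right _ (Eq.trans ?_ h)
    refine Finset.sum_congr rfl fun χ _ => ?_
    rw [← Chars.map_inv_eq_conj (Chars.isCharacter_coe χ), inv_inv]
  set T : (s → ℂ) →ₗ[ℂ] (G → ℂ) :=
    Fintype.linearCombination ℂ fun p : s => pRegularPart 2 ((p : IrrCharacter G) : G → ℂ) with hT
  have hrange : LinearMap.range T = KLSum.regSpan 2 B := by
    rw [hT, Fintype.range_linearCombination, KLSum.regSpan]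
    congr 1
    ext v
    constructor
    · rintro ⟨p, rfl⟩
      exact ⟨p, (Set.Finite.mem_toFinset _).1 p.2, rfl⟩
    · rintro ⟨p, hp, rfl⟩
      exact ⟨⟨p, (Set.Finite.mem_toFinset _).2 hp⟩, rfl⟩
  have hmem : ∀ v : s → ℂ, (∀ w : G, IsPRegular 2 w →
      ∑ p : s, ((p : IrrCharacter G) : G → ℂ) w * v p = 0) → v ∈ LinearMap.ker T := by
    intro v hv
    rw [LinearMap.mem_ker, hT, Fintype.linearCombination_apply]
    funext w
    rw [Finset.sum_apply]
    by_cases hw : IsPRegular 2 w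
    · refine Eq.trans (Finset.sum_congr rfl fun p _ => ?_) (hv w hw)
      simp [pRegularPart, hw, mul_comm]
    · simp [pRegularPart, hw]
  set V : Submodule ℂ (s → ℂ) := Submodule.span ℂ
    (Set.range fun (i : Fin (2 ^ (m - 1))) (p : s) => (DihedralColumns.vec k ((i : ℕ) + 1) p : ℂ))
    with hV
  have hlt : ∀ i : Fin (2 ^ (m - 1)), (i : ℕ) + 1 < 2 ^ m := fun i => by
    have := i.isLt
    have := c.two_le
    have : 2 ^ m = 2 * 2 ^ (m - 1) := by rw [← pow_succ', Nat.sub_add_cancel (by omega)]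
    omega
  have hVk : V ≤ LinearMap.ker T := by
    rw [hV, Submodule.span_le]
    rintro _ ⟨i, rfl⟩
    refine hmem _ fun w hw => ?_
    rw [Finset.sum_coe_sort s fun p : IrrCharacter G => (p : G → ℂ) w * (DihedralColumns.vec k ((i : ℕ) + 1) p : ℂ)]
    exact DihedralColumns.sum_mul_vec hcols (fun p : IrrCharacter G => (p : G → ℂ) w)
      (fun a ha0 ha => sum_regular_mul_pFn c hw ha0 ha) (hlt i)
  set φ : s → ℂ := fun p => ((p : IrrCharacter G) : G → ℂ) u with hφ
  have hne : V ≠ LinearMap.ker T := by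
    intro e
    have hcφ : (fun p => conj (φ p)) ∈ V := by
      rw [e]
      refine hmem _ fun w hw => ?_
      have h := finsum_block_regular_mul_conj_singular c.hM c.hB (x := w) hw hus
      rw [finsum_block_eq_sum, ← Finset.sum_coe_sort] at h
      exact h
    set L : (s → ℂ) →ₗ[ℂ] ℂ := Fintype.linearCombination ℂ φ with hL
    have hLV : V ≤ LinearMap.ker L := by
      rw [hV, Submodule.span_le]
      rintro _ ⟨i, rfl⟩
      rw [SetLike.mem_coe, LinearMap.mem_ker, hL, Fintype.linearCombination_apply,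
        Finset.sum_congr rfl fun p _ => by rw [smul_eq_mul, mul_comm],
        Finset.sum_coe_sort s fun p : IrrCharacter G => (p : G → ℂ) u * (DihedralColumns.vec k ((i : ℕ) + 1) p : ℂ)]
      exact DihedralColumns.sum_mul_vec hcols (fun p : IrrCharacter G => (p : G → ℂ) u) horth (hlt i)
    have h0 := hLV hcφ
    rw [LinearMap.mem_ker, hL, Fintype.linearCombination_apply] at h0
    have h0' : ∑ p : s, Complex.normSq (φ p) = 0 := by
      apply Complex.ofReal_injective
      push_cast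
      refine Eq.trans (Finset.sum_congr rfl fun p _ => ?_) h0
      rw [Complex.normSq_eq_conj_mul_self, smul_eq_mul]
    have h1 := (Finset.sum_eq_zero_iff_of_nonneg fun p _ => Complex.normSq_nonneg (φ p)).1 h0'
      ⟨χ₁, (Set.Finite.mem_toFinset _).2 hχ₁⟩ (Finset.mem_univ _)
    exact hu0 (Complex.normSq_eq_zero.1 h1)
  have h1 := Submodule.finrank_lt_finrank_of_lt (lt_of_le_of_ne hVk hne)
  rw [hV, finrank_span_eq_card (DihedralColumns.linearIndependent_vec hcols), Fintype.card_fin] at h1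
  have hrn := LinearMap.finrank_range_add_finrank_ker T
  rw [hrange, ← KLSum.blockRank_eq_finrank, hl, Module.finrank_fintype_fun_eq_card,
    Fintype.card_coe] at hrn
  have hsc : s.card = 2 ^ (m - 1) + 3 := by
    rw [← hk, hs, Nat.card_coe_set_eq, Set.ncard_eq_toFinset_card]
  omega

/-- **With rank three, the central involution is conjugate to every other involution of a dihedral
defect group.** -/
theorem dihedral_fusion (hM : IsPModular 2 M) (hB : IsPBlock M B) {D : Subgroup G}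
    (hD : IsDefectGroup 2 M B D) {n : ℕ} (hn : 3 ≤ n) (e : D ≃* DihedralGroup (2 ^ (n - 1)))
    (hl : blockRank 2 B = 3) :
    ∃ (m : ℕ) (x y z : G), 2 ≤ m ∧ IsDihGen D m x y ∧ z = x ^ 2 ^ (m - 1) ∧ orderOf z = 2 ∧
      ∀ i : ℤ, IsConj z (x ^ i * y) := by
  obtain ⟨z, H, instH, b, P, g, ψ, x, y, c, hP⟩ := exists_ctx_le hM hB hD hn e
  have hk := (dihedral_invariants hM hB hD hn e).1
  have hxD : (x : G) ∈ D := hP (Subgroup.mem_map_of_mem _ c.gen.x_mem)
  have hyD : (y : G) ∈ D := hP (Subgroup.mem_map_of_mem _ c.gen.y_mem)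
  have hcard : Nat.card D = 2 ^ (n - 1 + 1) := by
    rw [Nat.card_congr e.toEquiv, DihedralGroup.nat_card, pow_succ']
  have hgen : IsDihGen D (n - 1) (x : G) (y : G) := by
    refine ⟨by omega, hcard, hxD, hyD, ?_, ?_, ?_, ?_⟩
    · rw [Subgroup.orderOf_coe, c.gen.ox]
    · rw [Subgroup.orderOf_coe, c.gen.oy]
    · have := congrArg Subtype.val c.gen.rel
      push_cast at this
      exact this
    · rintro ⟨i, hi⟩
      exact c.gen.y_not_mem ⟨i, Subtype.ext (by simpa using hi)⟩
  refine ⟨n - 1, x, y, z, by omega, hgen, ?_, c.hz, fun i => ?_⟩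
  · exact c.hxz.symm
  obtain ⟨a, ha0, ha, hconj⟩ := isConj_rot_of_rank_three hM hB hD c hl
    (by rw [hk]; congr 2) (D.mul_mem (D.zpow_mem hxD i) hyD) (hgen.orderOf_refl i)
  have ho : orderOf ((x ^ a : H) : G) = 2 := by
    rw [← hgen.orderOf_refl i]
    obtain ⟨w, hw⟩ := isConj_iff.1 hconj
    rw [← hw]
    exact (MulEquiv.orderOf_eq (MulAut.conj w) _)
  have hza : ((x ^ a : H) : G) = z := by
    have h1 : x ^ (2 * a) = 1 := by
      rw [mul_comm, pow_mul, ← ho, Subgroup.orderOf_coe, pow_orderOf_eq_one]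
    obtain ⟨q, hq⟩ := orderOf_dvd_of_pow_eq_one h1
    rw [c.gen.ox] at hq
    have h2 : 2 ^ (n - 1) = 2 * 2 ^ (n - 1 - 1) := by rw [← pow_succ']; congr 1; omega
    have hq1 : q = 1 := by
      rcases lt_trichotomy q 1 with h | h | h
      · obtain rfl : q = 0 := by omega
        omega
      · exact h
      · have : 2 ^ (n - 1) * 2 ≤ 2 ^ (n - 1) * q := Nat.mul_le_mul_left _ h
        omega
    subst hq1
    have : a = 2 ^ (n - 1 - 1) := by omega
    subst this
    push_cast
    exact c.hxz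
  exact hza ▸ hconj.symm

/-- A central `2`-subgroup lies in the defect group. -/
theorem le_defectGroup_of_center {D Q : Subgroup G} (hD : IsDefectGroup 2 M B D) (hQ : IsPGroup 2 Q)
    (hQc : Q ≤ Subgroup.center G) : Q ≤ D := by
  obtain ⟨g, -, P, rfl⟩ := hD
  have hQg : Q ≤ Subgroup.centralizer ({g} : Set G) := fun q hq =>
    Subgroup.mem_centralizer_singleton_iff.2 (Subgroup.mem_center_iff.1 (hQc hq) g).symm
  haveI : (Q.subgroupOf (Subgroup.centralizer ({g} : Set G))).Normal := ⟨fun n hn h => by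
    rw [Subgroup.mem_subgroupOf] at hn ⊢
    have := Subgroup.mem_center_iff.1 (hQc hn) (h : G)
    push_cast
    rwa [this, mul_inv_cancel_right]⟩
  have hQp : IsPGroup 2 (Q.subgroupOf (Subgroup.centralizer ({g} : Set G))) :=
    hQ.comap_of_injective _ (Subgroup.subtype_injective _)
  have hle : Q.subgroupOf (Subgroup.centralizer ({g} : Set G)) ≤ P :=
    (le_sup_left).trans_eq (P.is_maximal' (IsPGroup.to_sup_of_normal_left hQp P.isPGroup')
      le_sup_right)
  intro q hq
  exact ⟨⟨q, hQg hq⟩, hle (Subgroup.mem_subgroupOf.2 hq), rfl⟩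

/-- A central involution would be the central involution of the defect group. -/
theorem odd_center (_hM : IsPModular 2 M) (_hB : IsPBlock M B) {D : Subgroup G}
    (hD : IsDefectGroup 2 M B D) {m : ℕ} {x y z : G} (hgen : IsDihGen D m x y)
    (hm : 2 ≤ m) (hxz : z = x ^ 2 ^ (m - 1)) (hy : IsConj z y) : Odd (Nat.card (Subgroup.center G)) := by
  rw [← Nat.not_even_iff_odd, even_iff_two_dvd]
  intro h2
  obtain ⟨w, hw⟩ := exists_prime_orderOf_dvd_card' 2 h2
  have hwc : (w : G) ∈ Subgroup.center G := w.2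
  rw [← Subgroup.orderOf_coe] at hw
  have hQ : IsPGroup 2 (Subgroup.zpowers (w : G)) :=
    IsPGroup.of_card (n := 1) (by rw [Nat.card_zpowers, hw, pow_one])
  have hwD : (w : G) ∈ D :=
    le_defectGroup_of_center hD hQ (Subgroup.zpowers_le.2 hwc) (Subgroup.mem_zpowers _)
  have hz : z = x ^ ((2 : ℤ) ^ (m - 1)) := by
    rw [hxz, ← zpow_natCast]; push_cast; rfl
  obtain ⟨c, hc⟩ := isConj_iff.1 hy
  rcases hgen.mem_involution hwD hw with h | ⟨i, h⟩
  · rw [← hz] at h
    have e : c * z * c⁻¹ = z := by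
      rw [← h, Subgroup.mem_center_iff.1 hwc c, mul_inv_cancel_right]
    refine hgen.y_not_mem ⟨(2 : ℤ) ^ (m - 1), ?_⟩
    show x ^ ((2 : ℤ) ^ (m - 1)) = y
    rw [← hz, ← hc, e]
  · have e := hgen.z_comm (g := x) hgen.x_mem
    have h1 : x * (x ^ i * y) = x ^ i * y * x := by
      rw [← h]; exact Subgroup.mem_center_iff.1 hwc x
    rw [mul_assoc (x ^ i) y x] at h1
    have h3 : y * x = x ^ (-1 : ℤ) * y := by simpa using hgen.y_mul_zpow 1
    rw [h3, ← mul_assoc, ← mul_assoc, ← zpow_one_add, ← zpow_add, mul_left_inj, hgen.zpow_eq_iff]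
      at h1
    have h4 : (2 : ℤ) ^ m ∣ 2 := by
      have e2 : 1 + i - (i + -1) = (2 : ℤ) := by ring
      rwa [e2] at h1
    have hox : orderOf x ∣ 2 := by
      rw [hgen.ox]
      exact_mod_cast h4
    have := Nat.le_of_dvd two_pos hox
    rw [hgen.ox] at this
    have : 2 ^ 2 ≤ 2 ^ m := Nat.pow_le_pow_right two_pos hm
    omega

end CfsgLib.Blocks.TameRankThree
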