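import Mathlib

/-!
# A central involution fused with non-central ones forces insolubility
-/

set_option autoImplicit false

namespace CfsgLib.Blocks.TameRankThree

open scoped commutatorElement

variable {G : Type*} [Group G]

/-- An element lying in the commutator of its normal closure forces insolubility. -/
theorem not_isSolvable_of_mem_commutator {z : G} (hz : z ≠ 1)
    (h : z ∈ ⁅Subgroup.normalClosure ({z} : Set G), Subgroup.normalClosure ({z} : Set G)⁆) :
    ¬ Group.IsSolvable G := by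
  intro hsol
  set L := Subgroup.normalClosure ({z} : Set G) with hL
  have hzL : z ∈ L := Subgroup.subset_normalClosure rfl
  have hle : L ≤ ⁅L, L⁆ := Subgroup.normalClosure_le_normal (by simpa using h)
  have key : ∀ n, L ≤ derivedSeries G n := by
    intro n
    induction n with
    | zero => simp
    | succ k ih => exact hle.trans (Subgroup.commutator_mono ih ih)
  obtain ⟨n, hn⟩ := hsol.solvable
  exact hz (by simpa [hn] using key n hzL)

/-- The dihedral case. -/
theorem not_isSolvable_dihedral {x y z : G} {m : ℕ} (hm : 2 ≤ m) (hz1 : z ≠ 1)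
    (hxz : z = x ^ 2 ^ (m - 1)) (hrel : y * x * y⁻¹ = x⁻¹) (h1 : IsConj z y)
    (h2 : IsConj z (x * y)) : ¬ Group.IsSolvable G := by
  refine not_isSolvable_of_mem_commutator hz1 ?_
  set L := Subgroup.normalClosure ({z} : Set G) with hL
  have hzL : z ∈ L := Subgroup.subset_normalClosure rfl
  have key : ∀ t, IsConj z t → t ∈ L := by
    intro t ht
    obtain ⟨w, rfl⟩ := isConj_iff.1 ht
    exact Subgroup.normalClosure_normal.conj_mem _ hzL w
  have hy := key y h1
  have hx : x ∈ L := by simpa using L.mul_mem (key _ h2) (L.inv_mem hy)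
  have hc := Subgroup.commutator_mem_commutator hx hy
  have e : ⁅x, y⁆ = x ^ 2 := by
    rw [commutatorElement_def, pow_two]
    have : y * x⁻¹ * y⁻¹ = x := by
      have := congrArg (·⁻¹) hrel
      simpa [mul_assoc] using this
    calc x * y * x⁻¹ * y⁻¹ = x * (y * x⁻¹ * y⁻¹) := by group
      _ = x * x := by rw [this]
  rw [e] at hc
  have h3 : 2 ^ (m - 1) = 2 * 2 ^ (m - 2) := by rw [← pow_succ']; congr 1; omega
  rw [hxz, h3, pow_mul]
  exact Subgroup.pow_mem _ hc _

/-- The semidihedral case. -/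
theorem not_isSolvable_semidihedral {x y z : G} {n : ℕ} (hn : 3 ≤ n) (hox : orderOf x = 2 ^ n)
    (hz1 : z ≠ 1) (hxz : z = x ^ 2 ^ (n - 1)) (hrel : y * x * y⁻¹ = x ^ (2 ^ (n - 1) - 1))
    (h1 : IsConj z y) : ¬ Group.IsSolvable G := by
  refine not_isSolvable_of_mem_commutator hz1 ?_
  set L := Subgroup.normalClosure ({z} : Set G) with hL
  have hzL : z ∈ L := Subgroup.subset_normalClosure rfl
  obtain ⟨w, hw⟩ := isConj_iff.1 h1
  have hy : y ∈ L := hw ▸ Subgroup.normalClosure_normal.conj_mem _ hzL w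
  set e : ℤ := 2 ^ (n - 1) - 1 with he
  have hrel' : ∀ i : ℤ, y * x ^ i * y⁻¹ = x ^ (e * i) := by
    intro i
    rw [← conj_zpow, hrel, zpow_mul, ← zpow_natCast]
    congr 1
    rw [he, Nat.cast_sub Nat.one_le_two_pow]
    norm_cast
  have hcomm : ∀ i : ℤ, ⁅x ^ i, y⁆ = x ^ ((1 - e) * i) := by
    intro i
    rw [commutatorElement_def, mul_assoc (x ^ i) y, mul_assoc (x ^ i), ← zpow_neg, hrel' (-i),
      ← zpow_add]
    congr 1
    ring
  have hx1 : x ^ (1 - e) ∈ L := by
    have h := hcomm 1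
    rw [mul_one, zpow_one] at h
    rw [← h, commutatorElement_def]
    exact L.mul_mem (Subgroup.normalClosure_normal.conj_mem _ hy x) (L.inv_mem hy)
  have hc := Subgroup.commutator_mem_commutator hx1 hy
  rw [hcomm] at hc
  obtain ⟨k, rfl⟩ : ∃ k, n = k + 3 := ⟨n - 3, by omega⟩
  have hu : (1 - e) * (1 - e) = 4 * (1 - 2 ^ (k + 1)) ^ 2 := by
    rw [he, show k + 3 - 1 = k + 2 by omega]
    ring
  rw [hu] at hc
  have hz : x ^ ((2 ^ (k + 2) : ℤ) * (1 - 2 ^ (k + 1)) ^ 2) = z := by
    rw [hxz, ← zpow_natCast, zpow_eq_zpow_iff_modEq, hox, show k + 3 - 1 = k + 2 by omega]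
    push_cast
    rw [Int.modEq_iff_dvd]
    exact ⟨2 ^ k * (2 - 2 ^ (k + 1)), by ring⟩
  rw [← hz, show (2 ^ (k + 2) : ℤ) * (1 - 2 ^ (k + 1)) ^ 2 = 4 * (1 - 2 ^ (k + 1)) ^ 2 * 2 ^ k by ring,
    zpow_mul]
  exact Subgroup.zpow_mem _ hc _

end CfsgLib.Blocks.TameRankThree
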