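import Cfsg.Agent.Eq.Def_CaseTheorems
import Cfsg.Agent.Blocks.TameRankThree.Dihedral
import Cfsg.Agent.Blocks.TameRankThree.Solvable

/-!
# Semidihedral defect groups: from the fusion to the two conclusions
-/

set_option autoImplicit false

namespace CfsgLib.Blocks.TameRankThree

open Cfsg CfsgLib CfsgLib.Blocks

universe u

variable {G : Type u} [Group G] [Fintype G] {M : Ideal AlgInt} [hMmax : M.IsMaximal]
  [hp : Fact (Nat.Prime 2)] [CharP (kres M) 2] {B : Set (IrrCharacter G)}

/-- If the central involution of a semidihedral defect group is conjugate to the reflections, then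
the center is odd and the group is insoluble. -/
theorem semidihedral_conclusion {D : Subgroup G} (hD : IsDefectGroup 2 M B D) {x y : G} {n : ℕ}
    (hn : 3 ≤ n) (hcard : Nat.card D = 2 ^ (n + 1)) (hxD : x ∈ D) (hyD : y ∈ D)
    (hox : orderOf x = 2 ^ n) (hoy : orderOf y = 2)
    (hrel : y * x * y⁻¹ = x ^ (2 ^ (n - 1) - 1)) (hfus : IsConj (x ^ 2 ^ (n - 1)) y) :
    Odd (Nat.card (Subgroup.center G)) ∧ ¬ Group.IsSolvable G := by
  classical
  set z := x ^ 2 ^ (n - 1) with hz
  have h2n : 2 ^ n = 2 * 2 ^ (n - 1) := by rw [← pow_succ']; congr 1; omega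
  have hoz : orderOf z = 2 := by
    rw [hz, orderOf_pow' _ (pow_ne_zero _ two_ne_zero), hox,
      Nat.gcd_eq_right (pow_dvd_pow 2 (Nat.sub_le _ _)), Nat.pow_div (Nat.sub_le _ _) two_pos,
      show n - (n - 1) = 1 by omega, pow_one]
  have hz1 : z ≠ 1 := fun e => by rw [e, orderOf_one] at hoz; norm_num at hoz
  refine ⟨?_, not_isSolvable_semidihedral hn hox hz1 hz hrel hfus⟩
  have h4 : 4 ≤ 2 ^ (n - 1) := by
    calc 4 = 2 ^ 2 := rfl
      _ ≤ _ := Nat.pow_le_pow_right two_pos (by omega)
  have hne : x ^ (2 ^ (n - 1) - 1) ≠ x := by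
    intro e
    nth_rewrite 2 [← pow_one x] at e
    have := pow_injOn_Iio_orderOf (x := x) (show 2 ^ (n - 1) - 1 < orderOf x by omega)
      (show 1 < orderOf x by omega) e
    omega
  have hynot : y ∉ Subgroup.zpowers x := by
    rintro ⟨i, rfl⟩
    refine hne (hrel.symm.trans ?_)
    have h := (Commute.self_zpow x i).eq
    simp only
    rw [← h, mul_inv_cancel_right]
  rw [← Nat.not_even_iff_odd, even_iff_two_dvd]
  intro h2
  obtain ⟨w, hw⟩ := exists_prime_orderOf_dvd_card' 2 h2
  have hwc : (w : G) ∈ Subgroup.center G := w.2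
  rw [← Subgroup.orderOf_coe] at hw
  have hQ : IsPGroup 2 (Subgroup.zpowers (w : G)) :=
    IsPGroup.of_card (n := 1) (by rw [Nat.card_zpowers, hw, pow_one])
  have hwD : (w : G) ∈ D :=
    le_defectGroup_of_center hD hQ (Subgroup.zpowers_le.2 hwc) (Subgroup.mem_zpowers _)
  set K := (Subgroup.zpowers x).subgroupOf D with hK
  have hidx : K.index = 2 := by
    have := K.card_mul_index
    rw [hK, Nat.card_congr (Subgroup.subgroupOfEquivOfLe ((Subgroup.zpowers_le).2 hxD)).toEquiv,
      Nat.card_zpowers, hox, hcard, pow_succ] at this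
    exact Nat.eq_of_mul_eq_mul_left (by positivity) this
  by_cases hwK : (w : G) ∈ Subgroup.zpowers x
  · obtain ⟨i, hi, hiw⟩ : ∃ i, i < orderOf x ∧ x ^ i = (w : G) := by
      obtain ⟨j, hj⟩ := Subgroup.mem_zpowers_iff.1 hwK
      obtain ⟨i, hi⟩ := (isOfFinOrder_of_finite x).mem_zpowers_iff_mem_range_orderOf.1 hwK |>
        Finset.mem_image.1
      exact ⟨i, Finset.mem_range.1 hi.1, hi.2⟩
    have hdvd : orderOf x ∣ i * 2 := by
      rw [orderOf_dvd_iff_pow_eq_one, pow_mul, hiw, ← hw, pow_orderOf_eq_one]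
    obtain ⟨q, hq⟩ := hdvd
    have hwz : (w : G) = z := by
      rw [← hiw, hz]
      congr 1
      rw [hox] at hq hi
      rcases Nat.lt_or_ge q 2 with h | h
      · rcases Nat.eq_zero_or_pos q with rfl | hq0
        · have : i = 0 := by omega
          subst this
          rw [pow_zero] at hiw
          rw [← hiw, orderOf_one] at hw
          omega
        · obtain rfl : q = 1 := by omega
          omega
      · have : 2 ^ n * 2 ≤ 2 ^ n * q := Nat.mul_le_mul_left _ h
        omega
    obtain ⟨c, hc⟩ := isConj_iff.1 hfus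
    have e : c * z * c⁻¹ = z := by
      rw [← hwz, Subgroup.mem_center_iff.1 hwc c, mul_inv_cancel_right]
    refine hynot ?_
    rw [← hc, e, hz]
    exact Subgroup.pow_mem _ (Subgroup.mem_zpowers x) _
  · have hmem := FusionTwo.mul_mem_of_not_mem hidx (a := ⟨(w : G), hwD⟩) (b := ⟨y, hyD⟩)
      (by rwa [hK, Subgroup.mem_subgroupOf]) (by rw [hK, Subgroup.mem_subgroupOf]; exact hynot)
    rw [hK, Subgroup.mem_subgroupOf] at hmem
    obtain ⟨i, hi⟩ := Subgroup.mem_zpowers_iff.1 hmem
    push_cast at hi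
    have hc := (Commute.self_zpow x i).eq
    rw [hi, ← mul_assoc, (Subgroup.mem_center_iff.1 hwc x), mul_assoc, mul_assoc] at hc
    have hxy : x * y = y * x := mul_left_cancel hc
    exact hne (hrel.symm.trans (by rw [← hxy, mul_inv_cancel_right]))

end CfsgLib.Blocks.TameRankThree
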